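import Cfsg.Agent.H130.F4Graph
import Cfsg.Agent.H209.EPX.Defs

/-!
# S5745: `T ^ k`, `k ≥ 2`, in `F₄(q)` and the prime graph (helper523)

* `exists_comm` : `EPS H N e`, `k ≥ 2`: for primes `r ≠ s` dividing `|T|` there is an element of order `r s`;
* `f4_adj` : in `F₄(q)` the numbers `e(r,q)`, `e(s,q)` are adjacent (`H130.F4Graph.Adj`);
* `f4_two_57`, `f4_three_57` : no `T ^ k`, `k ≥ 2`, in `F₄(2)`, `F₄(3)` if 5 and 7 divide `|T|` (`A₇²` in `F₄(2)`, `Sz(8)²`,
  `L₃(4)²`, `A₈²`, `A₉²` in `F₄(3)`).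
-/

set_option autoImplicit false

namespace Cfsg.Agent.H523.EPX

open Cfsg Cfsg.Lie Cfsg.Agent.H209.EPX

universe u

section

variable {G : Type*} [Group G] {H N : Subgroup G} {T : Type} [Group T] {k : ℕ} {e : N ≃* (Fin k → T)}

theorem finite_T [Finite G] (h : EPS H N e) : Finite T := by
  classical
  have : Finite (Fin k → T) := Finite.of_equiv _ e.toEquiv
  exact Finite.of_injective (fun t : T => (Pi.mulSingle ⟨0, h.pos⟩ t : Fin k → T))
    (Pi.mulSingle_injective (M := fun _ : Fin k => T) _)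

/-- **two factors give elements of order `r s`** -/
theorem exists_comm [Finite G] (h : EPS H N e) (hk : 2 ≤ k) {r s : ℕ} (hr : r.Prime) (hs : s.Prime) (hrs : r ≠ s)
    (hrT : r ∣ Nat.card T) (hsT : s ∣ Nat.card T) : ∃ x : G, orderOf x = r * s := by
  classical
  have := Fact.mk hr
  have := Fact.mk hs
  have hfin := finite_T h
  obtain ⟨a, ha⟩ := exists_prime_orderOf_dvd_card' r hrT
  obtain ⟨b, hb⟩ := exists_prime_orderOf_dvd_card' s hsT
  let i : Fin k := ⟨0, by omega⟩
  let j : Fin k := ⟨1, by omega⟩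
  have hij : i ≠ j := by
    intro hc
    have := congrArg Fin.val hc
    simp [i, j] at this
  let x : Fin k → T := Pi.mulSingle i a
  let y : Fin k → T := Pi.mulSingle j b
  have hx : orderOf x = r := by
    rw [← ha]
    exact orderOf_injective (MonoidHom.mulSingle (fun _ : Fin k => T) i)
      (Pi.mulSingle_injective (M := fun _ : Fin k => T) _) a
  have hy : orderOf y = s := by
    rw [← hb]
    exact orderOf_injective (MonoidHom.mulSingle (fun _ : Fin k => T) j)
      (Pi.mulSingle_injective (M := fun _ : Fin k => T) _) b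
  have hxy : Commute x y := Pi.mulSingle_commute (f := fun _ : Fin k => T) hij a b
  have hcop : (orderOf x).Coprime (orderOf y) := by
    rw [hx, hy]
    exact (Nat.coprime_primes hr hs).2 hrs
  have h1 : orderOf (x * y) = r * s := by rw [hxy.orderOf_mul_eq_mul_orderOf_of_coprime hcop, hx, hy]
  refine ⟨((e.symm (x * y) : N) : G), ?_⟩
  rw [Subgroup.orderOf_coe, ← h1]
  exact orderOf_injective e.symm.toMonoidHom e.symm.injective (x * y)

end

section

variable {F : Type u} [Field F] [Fintype F] {H N : Subgroup ↥(chevF4.group F)} {T : Type} [Group T] {k : ℕ}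
  {e : N ≃* (Fin k → T)} (h : EPS H N e) (hk : 2 ≤ k)

include h hk

/-- **adjacency in the prime graph of `F₄(q)`** -/
theorem f4_adj {r s : ℕ} (hr : r.Prime) (hs : s.Prime) (hrs : r ≠ s) (hr2 : r ≠ 2) (hs2 : s ≠ 2)
    (hrq : ¬ r ∣ Fintype.card F) (hsq : ¬ s ∣ Fintype.card F)
    (her : orderOf ((Fintype.card F : ℕ) : ZMod r) ∈ [1, 2, 3, 4, 6, 8, 12])
    (hes : orderOf ((Fintype.card F : ℕ) : ZMod s) ∈ [1, 2, 3, 4, 6, 8, 12])
    (hrT : r ∣ Nat.card T) (hsT : s ∣ Nat.card T) :
    Cfsg.Agent.H130.F4Graph.Adj (orderOf ((Fintype.card F : ℕ) : ZMod r)) (orderOf ((Fintype.card F : ℕ) : ZMod s)) := by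
  have hfin : Finite ↥(chevF4.group F) := inferInstance
  exact (Cfsg.Agent.H130.F4Graph.odd_iff hr hs hrs hr2 hs2 hrq hsq her hes).1 (exists_comm h hk hr hs hrs hrT hsT)

/-- no `T ^ k`, `k ≥ 2`, in `F₄(2)` if `5` and `7` divide `|T|` -/
theorem f4_two_57 (hF : Nat.card F = 2) (h5 : 5 ∣ Nat.card T) (h7 : 7 ∣ Nat.card T) : False := by
  have hc : Fintype.card F = 2 := by rw [← Nat.card_eq_fintype_card, hF]
  have o5 : orderOf ((Fintype.card F : ℕ) : ZMod 5) = 4 := by
    rw [hc, orderOf_eq_iff (by norm_num)]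
    decide
  have o7 : orderOf ((Fintype.card F : ℕ) : ZMod 7) = 3 := by
    rw [hc, orderOf_eq_iff (by norm_num)]
    decide
  have h1 := f4_adj h hk (r := 5) (s := 7) (by norm_num) (by norm_num) (by norm_num) (by norm_num) (by norm_num)
    (by rw [hc]; norm_num) (by rw [hc]; norm_num) (by rw [o5]; decide) (by rw [o7]; decide) h5 h7
  rw [o5, o7] at h1
  revert h1
  decide

/-- no `T ^ k`, `k ≥ 2`, in `F₄(3)` if `5` and `7` divide `|T|` -/
theorem f4_three_57 (hF : Nat.card F = 3) (h5 : 5 ∣ Nat.card T) (h7 : 7 ∣ Nat.card T) : False := by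
  have hc : Fintype.card F = 3 := by rw [← Nat.card_eq_fintype_card, hF]
  have o5 : orderOf ((Fintype.card F : ℕ) : ZMod 5) = 4 := by
    rw [hc, orderOf_eq_iff (by norm_num)]
    decide
  have o7 : orderOf ((Fintype.card F : ℕ) : ZMod 7) = 6 := by
    rw [hc, orderOf_eq_iff (by norm_num)]
    decide
  have h1 := f4_adj h hk (r := 5) (s := 7) (by norm_num) (by norm_num) (by norm_num) (by norm_num) (by norm_num)
    (by rw [hc]; norm_num) (by rw [hc]; norm_num) (by rw [o5]; decide) (by rw [o7]; decide) h5 h7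
  rw [o5, o7] at h1
  revert h1
  decide

end

end Cfsg.Agent.H523.EPX
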