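import Cfsg.Agent.H952.F4.Final
import Cfsg.Agent.SignalizersComponents.Components
import Cfsg.Agent.Lib.GenFitting
import Cfsg.Agent.H812.LayerSimple
import Cfsg.Agent.H209.EPX.Defs

/-!
# S5745: alternating socles in `F₄(q)` (helper523)

* `genFit_equiv` : `EPS H N e`, `k = 1`: `F*(H) ≅ T`;
* `f4_alt` : `EPS H N e` in `F₄(q)`, `k = 1`, `T ≅ A_n`: `n = 6` and the characteristic is not 2, 5 (S5926).
-/

set_option autoImplicit false

namespace Cfsg.Agent.H523.EPX

open Cfsg Subgroup Cfsg.Agent.H209.EPX Cfsg.Agent.H284 Cfsg.Agent.Lib Cfsg.Agent.SignalizersComponents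

/-- A normal quasisimple subgroup with trivial centralizer is the generalized Fitting subgroup (copy of
`H15.BpBal.genFitting_eq_of_centralizer`, helper15). -/
theorem genFitting_eq {S : Type*} [Group S] [Finite S] {A : Subgroup S} (hn : A.Normal) (hA : IsQuasisimple ↥A)
    (hC : centralizer (A : Set S) = ⊥) : generalizedFittingSubgroup S = A := by
  have hcA : IsComponent A := ⟨hn.isSubnormal, hA⟩
  have h1 : layer S = A := by
    apply le_antisymm
    · refine Components.layer_le_iff.2 fun L hL => ?_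
      rcases Components.component_le_or_commutator_eq_bot hL hn.isSubnormal with h | h
      · exact h
      · exfalso
        rw [commutator_eq_bot_iff_le_centralizer, hC, le_bot_iff] at h
        exact Components.component_ne_bot hL h
    · exact Components.component_le_layer hcA
  have h2 : fittingSubgroup S = ⊥ := by
    rw [eq_bot_iff, ← hC]
    have h3 := Components.layer_commutator_fitting (G := S)
    rw [h1, commutator_comm, commutator_eq_bot_iff_le_centralizer] at h3
    exact h3
  rw [GenFitting.genFitting_def, h1, h2, sup_bot_eq]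

section

variable {G : Type*} [Group G] [Finite G] {H N : Subgroup G} {T : Type} [Group T] {e : N ≃* (Fin 1 → T)}

/-- **`F*(H) ≅ T`** -/
theorem genFit_equiv (h : EPS H N e) : Nonempty (↥(generalizedFittingSubgroup ↥H) ≃* T) := by
  have hs : IsSimpleGroup T := h.simple
  let i : ↥(N.subgroupOf H) ≃* T :=
    ((Subgroup.subgroupOfEquivOfLe h.le).trans e).trans (MulEquiv.piUnique (fun _ : Fin 1 => T))
  have hs' : IsSimpleGroup ↥(N.subgroupOf H) := i.isSimpleGroup
  have hna : ∃ a b : ↥(N.subgroupOf H), a * b ≠ b * a := by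
    obtain ⟨a, b, hab⟩ := h.nab
    refine ⟨i.symm a, i.symm b, fun hc => hab ?_⟩
    have h1 := congrArg i hc
    rwa [map_mul, map_mul, i.apply_symm_apply, i.apply_symm_apply] at h1
  have hn : (N.subgroupOf H).Normal := ⟨fun n hn g => h.nrm g g.2 n hn⟩
  have hC : centralizer ((N.subgroupOf H : Subgroup ↥H) : Set ↥H) = ⊥ := by
    rw [Subgroup.eq_bot_iff_forall]
    intro c hc
    have h1 : (c : G) ∈ Subgroup.centralizer (N : Set G) := by
      rw [mem_centralizer_iff]
      intro n hn
      exact congrArg Subtype.val (mem_centralizer_iff.1 hc ⟨n, h.le hn⟩ hn)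
    rw [h.cent, mem_bot] at h1
    exact Subtype.ext h1
  rw [genFitting_eq hn (Cfsg.Agent.H812.LayerSimple.quasisimple_of_simple hna) hC]
  exact ⟨i⟩

end

/-- **`A_n` in `F₄(q)`** -/
theorem f4_alt {F : Type*} [Field F] [Fintype F] (p : ℕ) [Fact p.Prime] [CharP F p]
    {H N : Subgroup ↥(Lie.chevF4.group F)} {T : Type} [Group T] {e : N ≃* (Fin 1 → T)} (h : EPS H N e) {n : ℕ}
    (hn : 5 ≤ n) (i : T ≃* ↥(alternatingGroup (Fin n))) : n = 6 ∧ p ≠ 2 ∧ p ≠ 5 := by
  obtain ⟨j⟩ := genFit_equiv h
  exact Cfsg.Agent.H952.F4.Final.final p H h.ep.max n hn ⟨j.trans i⟩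

/-- no `A_n`, `n ≠ 6`, in `F₄(q)` -/
theorem f4_alt_false {F : Type*} [Field F] [Fintype F] {H N : Subgroup ↥(Lie.chevF4.group F)} {T : Type} [Group T]
    {e : N ≃* (Fin 1 → T)} (h : EPS H N e) {n : ℕ} (hn : 5 ≤ n) (h6 : n ≠ 6) (i : T ≃* ↥(alternatingGroup (Fin n))) :
    False := by
  obtain ⟨p, hp⟩ := CharP.exists F
  have hpp : p.Prime := (CharP.char_is_prime_or_zero F p).resolve_right
    fun h0 => (CharP.char_ne_zero_of_finite F p) h0
  have := Fact.mk hpp
  exact h6 (f4_alt p h hn i).1

end Cfsg.Agent.H523.EPX
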