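import Cfsg.Agent.H912.Bd1

/-!
# Modules for `T × T` where `T` has a subgroup of order 25 whose nontrivial elements are conjugate (S5745, helper523)

* `exists_basis` : a basis of common eigenvectors for a commutative subgroup of exponent `N ≠ 0` in `k`;
* `finrank_inf` : dimensions of common eigenspaces;
* `five_pair` : the multiplicity `e₁` of a nontrivial eigenvalue of `(x, 1)`, `x ∈ P`, `x ≠ 1`, is independent of `x` and of the
  eigenvalue, `5 ∣ e₁`, and `24 (e₁ + e₂) ≤ 5 dim V` if `dim V < 576`.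
-/

set_option autoImplicit false

namespace Cfsg.Agent.H523.EPX.TK

open Module Cfsg.Agent.H912.Bd

section Basis

variable {K : Type*} [Field K] {V : Type*} [AddCommGroup V] [Module K V] [FiniteDimensional K V] {L : Type*} [Group L]

theorem exists_basis [IsAlgClosed K] (ρ : L →* Module.End K V) {A : Subgroup L}
    (hA : ∀ a ∈ A, ∀ b ∈ A, a * b = b * a) {N : ℕ} (hN : (N : K) ≠ 0) (hAN : ∀ a ∈ A, a ^ N = 1) :
    ∃ (n : ℕ) (b : Basis (Fin n) K V) (χ : Fin n → A → K), ∀ i, ∀ a : A, ρ a (b i) = χ i a • b i := by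
  classical
  have h1 : DirectSum.IsInternal (wt ρ A) :=
    DirectSum.isInternal_submodule_of_iSupIndep_of_iSup_eq_top (indep_wt ρ hA hN hAN) (iSup_wt ρ hA hN hAN)
  let b0 := h1.collectedBasis fun χ => Module.finBasis K (wt ρ A χ)
  have hfin : Finite ((χ : A → K) × Fin (finrank K (wt ρ A χ))) := Module.Finite.finite_basis b0
  have := Fintype.ofFinite ((χ : A → K) × Fin (finrank K (wt ρ A χ)))
  let eq := Fintype.equivFin ((χ : A → K) × Fin (finrank K (wt ρ A χ)))
  refine ⟨_, b0.reindex eq, fun i => (eq.symm i).1, fun i a => ?_⟩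
  rw [Basis.reindex_apply]
  exact mem_wt.1 (h1.collectedBasis_mem (fun χ => Module.finBasis K (wt ρ A χ)) (eq.symm i)) a

omit [FiniteDimensional K V] in
/-- dimension of a common eigenspace -/
theorem finrank_inf [DecidableEq K] {n : ℕ} (b : Basis (Fin n) K V) {f g : Module.End K V} {c d : Fin n → K}
    (hf : ∀ i, f (b i) = c i • b i) (hg : ∀ i, g (b i) = d i • b i) (μ ν : K) :
    finrank K ↥(f.eigenspace μ ⊓ g.eigenspace ν) = (Finset.univ.filter fun i => c i = μ ∧ d i = ν).card := by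
  have hrep : ∀ (f : Module.End K V) (c : Fin n → K), (∀ i, f (b i) = c i • b i) → ∀ (v : V) (i : Fin n),
      b.repr (f v) i = c i * b.repr v i := by
    intro f c hf v i
    conv_lhs => rw [← b.sum_repr v]
    rw [map_sum, map_sum, Finsupp.finsetSum_apply, Finset.sum_eq_single i]
    · rw [map_smul, hf, smul_comm, map_smul, map_smul, Basis.repr_self]
      simp
    · intro j _ hj
      rw [map_smul, hf, smul_comm, map_smul, map_smul, Basis.repr_self]
      simp [Finsupp.single_eq_of_ne hj.symm]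
    · intro h
      exact absurd (Finset.mem_univ i) h
  have key : f.eigenspace μ ⊓ g.eigenspace ν = Submodule.span K (Set.range fun i : {i : Fin n // c i = μ ∧ d i = ν} =>
      b i.1) := by
    apply le_antisymm
    · rintro v ⟨h1, h2⟩
      rw [SetLike.mem_coe, Module.End.mem_eigenspace_iff] at h1 h2
      rw [← b.sum_repr v]
      refine Submodule.sum_mem _ fun i _ => ?_
      by_cases hi : b.repr v i = 0
      · rw [hi, zero_smul]
        exact Submodule.zero_mem _
      · refine Submodule.smul_mem _ _ (Submodule.subset_span ⟨⟨i, ?_, ?_⟩, rfl⟩)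
        · have h3 := hrep f c hf v i
          rw [h1, map_smul, Finsupp.smul_apply, smul_eq_mul] at h3
          exact (mul_right_cancel₀ hi h3).symm
        · have h3 := hrep g d hg v i
          rw [h2, map_smul, Finsupp.smul_apply, smul_eq_mul] at h3
          exact (mul_right_cancel₀ hi h3).symm
    · rw [Submodule.span_le]
      rintro _ ⟨⟨i, h1, h2⟩, rfl⟩
      refine ⟨?_, ?_⟩
      · rw [SetLike.mem_coe, Module.End.mem_eigenspace_iff]
        subst h1
        exact hf i
      · rw [SetLike.mem_coe, Module.End.mem_eigenspace_iff]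
        subst h2
        exact hg i
  have h3 := finrank_span_eq_card (b.linearIndependent.comp (fun i : {i : Fin n // c i = μ ∧ d i = ν} => i.1)
    Subtype.val_injective)
  rw [Fintype.card_subtype] at h3
  rw [key]
  exact h3

end Basis

/-! ### conjugation -/

section Conj

variable {K : Type*} [Field K] {V : Type*} [AddCommGroup V] [Module K V] [FiniteDimensional K V] {L : Type*} [Group L]
  (ρ : L →* Module.End K V)

/-- dimensions of common eigenspaces of conjugate pairs -/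
theorem finrank_conj {x y g : L} (μ ν : K) :
    finrank K ↥((ρ x).eigenspace μ ⊓ (ρ y).eigenspace ν) ≤
      finrank K ↥((ρ (g * x * g⁻¹)).eigenspace μ ⊓ (ρ (g * y * g⁻¹)).eigenspace ν) := by
  rw [(Submodule.equivMapOfInjective (ρ g) (rho_injective ρ g) _).finrank_eq]
  apply Submodule.finrank_mono
  rintro _ ⟨v, ⟨h1, h2⟩, rfl⟩
  have key : ∀ (x : L) (μ : K), v ∈ (ρ x).eigenspace μ → ρ g v ∈ (ρ (g * x * g⁻¹)).eigenspace μ := by
    intro x μ h
    rw [Module.End.mem_eigenspace_iff] at h ⊢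
    have e : ρ (g * x * g⁻¹) (ρ g v) = ρ g (ρ x v) := by
      rw [← Module.End.mul_apply, ← Module.End.mul_apply, ← map_mul, ← map_mul, inv_mul_cancel_right]
    rw [e, h, map_smul]
  exact ⟨key x μ h1, key y ν h2⟩

end Conj

/-! ### counting -/

section Count

variable {K : Type*} [Field K] {P : Type*} [Group P] [Fintype P] [DecidableEq K]

/-- a nontrivial homomorphism from a group of order 25 and exponent 5 to a field has a kernel of order 5 -/
theorem card_ker (hP : Fintype.card P = 25) (hexp : ∀ a : P, a ^ 5 = 1) (c : P →* K) {a₀ : P} (ha : c a₀ ≠ 1) :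
    (Finset.univ.filter fun a => c a ≠ 1).card = 20 := by
  classical
  let c' : P →* Kˣ := c.toHomUnits
  have hc' : ∀ a, ((c' a : Kˣ) : K) = c a := fun a => rfl
  have h1 : ∀ a, c' a ∈ rootsOfUnity 5 K := by
    intro a
    rw [mem_rootsOfUnity, ← map_pow, hexp, map_one]
  have hker : Nat.card c'.ker * Nat.card c'.range = 25 := by
    rw [← Nat.card_eq_fintype_card] at hP
    rw [← hP, ← c'.ker.card_mul_index]
    congr 1
    exact (Subgroup.index_ker c').symm
  have hle : Nat.card c'.range ≤ 5 := by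
    have h2 : c'.range ≤ rootsOfUnity 5 K := by
      rintro _ ⟨a, rfl⟩
      exact h1 a
    exact (Nat.card_le_card_of_injective _ (Subgroup.inclusion_injective h2)).trans (card_rootsOfUnity K 5)
  have hne : Nat.card c'.range ≠ 1 := by
    intro h
    rw [Subgroup.card_eq_one] at h
    have h3 : c' a₀ ∈ c'.range := ⟨a₀, rfl⟩
    rw [h, Subgroup.mem_bot] at h3
    apply ha
    rw [← hc', h3, Units.val_one]
  have hdvd : Nat.card c'.range ∣ 5 ^ 2 := ⟨Nat.card c'.ker, by rw [mul_comm] at hker; rw [hker]; norm_num⟩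
  obtain ⟨j, hj, h4⟩ := (Nat.dvd_prime_pow (by norm_num)).1 hdvd
  have h5 : Nat.card c'.range = 5 := by
    interval_cases j
    · exact absurd h4 hne
    · exact h4
    · rw [h4] at hle
      norm_num at hle
  rw [h5] at hker
  have h6 : (Finset.univ.filter fun a => c a = 1).card = Nat.card c'.ker := by
    rw [← Fintype.card_subtype, ← Nat.card_eq_fintype_card]
    refine Nat.card_congr (Equiv.subtypeEquivRight fun a => ?_)
    rw [MonoidHom.mem_ker, Units.ext_iff, Units.val_one, hc']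
  have h7 := Finset.card_filter_add_card_filter_not (s := (Finset.univ : Finset P)) (fun a => c a = 1)
  rw [Finset.card_univ, hP] at h7
  have h8 : (Finset.univ.filter fun a => c a ≠ 1).card = (Finset.univ.filter fun a => ¬ c a = 1).card := rfl
  omega

variable (hexp : ∀ a : P, a ^ 5 = 1) {ζ : K} (hζ : IsPrimitiveRoot ζ 5)

omit [Fintype P] [DecidableEq K] in
include hexp in
theorem pow_mul_inv {j j' : ℕ} (hj : j' * j % 5 = 1) (a : P) : (a ^ j') ^ j = a := by
  rw [← pow_mul, ← Nat.div_add_mod (j' * j) 5, hj, pow_add, pow_mul, hexp, one_pow, one_mul, pow_one]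

omit [Fintype P] [DecidableEq K] in
include hexp hζ in
theorem eq_pow_iff {j j' : ℕ} (hj : j' * j % 5 = 1) (c : P →* K) (a : P) : c a = ζ ^ j ↔ c (a ^ j') = ζ := by
  have h5 : ζ ^ 5 = 1 := hζ.pow_eq_one
  constructor
  · intro h
    rw [map_pow, h, ← pow_mul, mul_comm j j', ← Nat.div_add_mod (j' * j) 5, hj, pow_add, pow_mul, h5, one_pow, one_mul,
      pow_one]
  · intro h
    have h1 := congrArg c (pow_mul_inv hexp hj a)
    rw [map_pow, h] at h1
    exact h1.symm

omit [Fintype P] in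
include hexp hζ in
/-- splitting according to the value -/
theorem card_split {n : ℕ} (c : Fin n → P →* K) (a : P) (p : Fin n → Prop) [DecidablePred p] :
    (Finset.univ.filter fun i => c i a ≠ 1 ∧ p i).card =
      ∑ j ∈ Finset.range 4, (Finset.univ.filter fun i => c i a = ζ ^ (j + 1) ∧ p i).card := by
  classical
  rw [← Finset.card_biUnion]
  · congr 1
    ext i
    simp only [Finset.mem_filter, Finset.mem_univ, true_and, Finset.mem_biUnion, Finset.mem_range]
    constructor
    · rintro ⟨h1, h2⟩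
      have h3 : c i a ^ 5 = 1 := by rw [← map_pow, hexp, map_one]
      obtain ⟨m, hm, h4⟩ := hζ.eq_pow_of_pow_eq_one h3
      have hm0 : m ≠ 0 := by
        rintro rfl
        exact h1 (by rw [← h4, pow_zero])
      exact ⟨m - 1, by omega, by rw [Nat.sub_add_cancel (by omega), h4], h2⟩
    · rintro ⟨j, hj, h1, h2⟩
      refine ⟨?_, h2⟩
      rw [h1]
      exact hζ.pow_ne_one_of_pos_of_lt (by omega) (by omega)
  · intro j hj l hl hjl
    rw [Function.onFun, Finset.disjoint_left]
    intro i h1 h2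
    rw [Finset.mem_filter] at h1 h2
    have h3 := h1.2.1.symm.trans h2.2.1
    have hj' := Finset.mem_range.1 (Finset.mem_coe.1 hj)
    have hl' := Finset.mem_range.1 (Finset.mem_coe.1 hl)
    have h4 := hζ.pow_inj (by omega) (by omega) h3
    omega

omit [Fintype P] [DecidableEq K] in
include hexp in
theorem exists_inv {j : ℕ} (hj : j < 4) : ∃ j', j' * (j + 1) % 5 = 1 ∧ ∀ a : P, a ≠ 1 → a ^ j' ≠ 1 := by
  obtain ⟨j', h⟩ : ∃ j', j' * (j + 1) % 5 = 1 := by
    interval_cases j
    · exact ⟨1, rfl⟩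
    · exact ⟨3, rfl⟩
    · exact ⟨2, rfl⟩
    · exact ⟨4, rfl⟩
  refine ⟨j', h, fun a ha h1 => ha ?_⟩
  have h2 := pow_mul_inv hexp h a
  rw [← h2, h1, one_pow]

include hexp hζ in
/-- **One factor.** -/
theorem count_one (hP : Fintype.card P = 25) {n : ℕ} (c : Fin n → P →* K) (p : Fin n → Prop) [DecidablePred p]
    (hE : ∀ a : P, a ≠ 1 → ∀ a' : P, a' ≠ 1 → (Finset.univ.filter fun i => c i a = ζ ∧ p i).card =
      (Finset.univ.filter fun i => c i a' = ζ ∧ p i).card) :
    ∃ e : ℕ, (∀ a : P, a ≠ 1 → ∀ j < 4, (Finset.univ.filter fun i => c i a = ζ ^ (j + 1) ∧ p i).card = e) ∧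
      5 * (Finset.univ.filter fun i => (∃ a, c i a ≠ 1) ∧ p i).card = 24 * e := by
  classical
  have hnt : Nontrivial P := by
    rw [← Fintype.one_lt_card_iff_nontrivial, hP]; norm_num
  obtain ⟨a₀, ha₀⟩ := exists_ne (1 : P)
  set e := (Finset.univ.filter fun i => c i a₀ = ζ ∧ p i).card with he
  have hu : ∀ a : P, a ≠ 1 → ∀ j < 4, (Finset.univ.filter fun i => c i a = ζ ^ (j + 1) ∧ p i).card = e := by
    intro a ha j hj
    obtain ⟨j', h1, h2⟩ := exists_inv hexp hj
    have h3 : (Finset.univ.filter fun i => c i a = ζ ^ (j + 1) ∧ p i) =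
        Finset.univ.filter fun i => c i (a ^ j') = ζ ∧ p i := by
      apply Finset.filter_congr
      intro i _
      rw [eq_pow_iff hexp hζ h1]
    rw [h3, he]
    exact hE _ (h2 a ha) _ ha₀
  refine ⟨e, hu, ?_⟩
  have h1 : ∀ a : P, a ≠ 1 → (Finset.univ.filter fun i => c i a ≠ 1 ∧ p i).card = 4 * e := by
    intro a ha
    rw [card_split hexp hζ c a p, Finset.sum_congr rfl fun j hj => hu a ha j (Finset.mem_range.1 hj)]
    simp
  have h2 : ∑ a : P, (Finset.univ.filter fun i => c i a ≠ 1 ∧ p i).card = 24 * (4 * e) := by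
    rw [← Finset.add_sum_erase _ _ (Finset.mem_univ (1 : P)), Finset.sum_congr rfl fun a ha =>
      h1 a (Finset.ne_of_mem_erase ha), Finset.sum_const, Finset.card_erase_of_mem (Finset.mem_univ _),
      Finset.card_univ, hP]
    simp
  have h3 : ∑ a : P, (Finset.univ.filter fun i => c i a ≠ 1 ∧ p i).card =
      ∑ i : Fin n, (Finset.univ.filter fun a : P => c i a ≠ 1 ∧ p i).card := by
    simp only [Finset.card_filter]
    exact Finset.sum_comm
  have h4 : ∀ i : Fin n, (Finset.univ.filter fun a : P => c i a ≠ 1 ∧ p i).card =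
      if (∃ a, c i a ≠ 1) ∧ p i then 20 else 0 := by
    intro i
    split_ifs with h
    · obtain ⟨⟨a, ha⟩, hp⟩ := h
      rw [← card_ker hP hexp (c i) ha]
      congr 1
      apply Finset.filter_congr
      intro b _
      simp [hp]
    · rw [Finset.card_eq_zero, Finset.filter_eq_empty_iff]
      intro a _ h'
      exact h ⟨⟨a, h'.1⟩, h'.2⟩
  rw [Finset.sum_congr rfl fun i _ => h4 i, ← Finset.sum_filter, Finset.sum_const, smul_eq_mul] at h3
  omega

include hexp hζ in
/-- **Two factors.** -/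
theorem count_two (hP : Fintype.card P = 25) {n : ℕ} (c d : Fin n → P →* K)
    (hF : ∀ a : P, a ≠ 1 → ∀ a' : P, a' ≠ 1 → ∀ b : P, b ≠ 1 → ∀ b' : P, b' ≠ 1 →
      (Finset.univ.filter fun i => c i a = ζ ∧ d i b = ζ).card = (Finset.univ.filter fun i => c i a' = ζ ∧ d i b' = ζ).card)
    (hn : n < 576) (i : Fin n) : (∀ a, c i a = 1) ∨ ∀ b, d i b = 1 := by
  classical
  have hnt : Nontrivial P := by
    rw [← Fintype.one_lt_card_iff_nontrivial, hP]; norm_num
  obtain ⟨a₀, ha₀⟩ := exists_ne (1 : P)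
  set f := (Finset.univ.filter fun i => c i a₀ = ζ ∧ d i a₀ = ζ).card with hf
  have h1 : ∀ b : P, b ≠ 1 → 5 * (Finset.univ.filter fun i => d i b = ζ ∧ ∃ a, c i a ≠ 1).card = 24 * f := by
    intro b hb
    obtain ⟨e, h2, h3⟩ := count_one hexp hζ hP c (fun i => d i b = ζ) fun a ha a' ha' => hF a ha a' ha' b hb b hb
    have h4 := h2 a₀ ha₀ 0 (by norm_num)
    rw [zero_add, pow_one] at h4
    have h5 := hF a₀ ha₀ a₀ ha₀ b hb a₀ ha₀
    rw [h4, ← hf] at h5
    rw [← h5, ← h3]
    congr 2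
    ext i
    simp only [Finset.mem_filter, Finset.mem_univ, true_and]
    exact and_comm
  obtain ⟨e, h2, h3⟩ := count_one hexp hζ hP d (fun i => ∃ a, c i a ≠ 1) fun a ha a' ha' => by
    have h4 := h1 a ha
    have h5 := h1 a' ha'
    omega
  have h4 := h2 a₀ ha₀ 0 (by norm_num)
  rw [zero_add, pow_one] at h4
  have h5 := h1 a₀ ha₀
  rw [h4] at h5
  have h6 : (Finset.univ.filter fun i => (∃ a, d i a ≠ 1) ∧ ∃ a, c i a ≠ 1).card ≤ n := by
    refine (Finset.card_filter_le _ _).trans ?_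
    rw [Finset.card_univ, Fintype.card_fin]
  have h7 : (Finset.univ.filter fun i => (∃ a, d i a ≠ 1) ∧ ∃ a, c i a ≠ 1).card = 0 := by omega
  rw [Finset.card_eq_zero, Finset.filter_eq_empty_iff] at h7
  by_contra hcon
  push Not at hcon
  exact h7 (Finset.mem_univ i) ⟨hcon.2, hcon.1⟩

end Count

section Main

variable {K : Type*} [Field K] {V : Type*} [AddCommGroup V] [Module K V] [FiniteDimensional K V]

theorem exp_of_fus {T : Type*} [Group T] {P : Subgroup T} (hP : Nat.card P = 25)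
    (hfus : ∀ x ∈ P, x ≠ 1 → ∀ y ∈ P, y ≠ 1 → ∃ s : T, s * x * s⁻¹ = y) : ∀ a : P, a ^ 5 = 1 := by
  have hf : Fact (Nat.Prime 5) := ⟨by norm_num⟩
  have hfin : Finite P := Nat.finite_of_card_ne_zero (by rw [hP]; norm_num)
  obtain ⟨x, hx⟩ := exists_prime_orderOf_dvd_card' (G := P) 5 (by rw [hP]; norm_num)
  have hx1 : (x : T) ≠ 1 := by
    intro h
    have h1 : x = 1 := Subtype.ext h
    rw [h1, orderOf_one] at hx
    norm_num at hx
  intro a
  by_cases ha : a = 1
  · rw [ha, one_pow]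
  · obtain ⟨s, hs⟩ := hfus x x.2 hx1 a a.2 fun h => ha (Subtype.ext h)
    apply Subtype.ext
    rw [Subgroup.coe_pow, ← hs, conj_pow, Subgroup.coe_one]
    have h1 : (x : T) ^ 5 = 1 := by
      rw [← Subgroup.coe_pow, ← hx, pow_orderOf_eq_one, Subgroup.coe_one]
    rw [h1, mul_one, mul_inv_cancel]

theorem comm_of_card {P : Type*} [Group P] (hP : Nat.card P = 25) (a b : P) : a * b = b * a := by
  have hf : Fact (Nat.Prime 5) := ⟨by norm_num⟩
  exact (IsPGroup.isMulCommutative_of_card_eq_prime_sq (p := 5) (by rw [hP]; norm_num)).is_comm.comm a b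

/-- **The dimensions.** -/
theorem five_pair [IsAlgClosed K] (h5 : ((5 : ℕ) : K) ≠ 0) {T : Type*} [Group T] {P : Subgroup T} (hP : Nat.card P = 25)
    (hfus : ∀ x ∈ P, x ≠ 1 → ∀ y ∈ P, y ≠ 1 → ∃ s : T, s * x * s⁻¹ = y) (ρ : T × T →* Module.End K V)
    (hV : finrank K V < 576) : ∃ e₁ e₂ : ℕ, 5 ∣ e₁ ∧ 5 ∣ e₂ ∧ 24 * (e₁ + e₂) ≤ 5 * finrank K V ∧
      (∀ x ∈ P, x ≠ 1 → ∀ μ : K, μ ^ 5 = 1 → μ ≠ 1 → finrank K ((ρ (x, 1)).eigenspace μ) = e₁) ∧
      ∀ x ∈ P, x ≠ 1 → ∀ μ : K, μ ^ 5 = 1 → μ ≠ 1 → finrank K ((ρ (1, x)).eigenspace μ) = e₂ := by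
  classical
  have hexp := exp_of_fus hP hfus
  have hfin : Finite P := Nat.finite_of_card_ne_zero (by rw [hP]; norm_num)
  have := Fintype.ofFinite P
  have hP' : Fintype.card P = 25 := by rw [← Nat.card_eq_fintype_card, hP]
  have hne : NeZero ((5 : ℕ) : K) := ⟨h5⟩
  obtain ⟨ζ, hζ⟩ := HasEnoughRootsOfUnity.exists_primitiveRoot K 5
  have hcomm : ∀ a ∈ P.prod P, ∀ b ∈ P.prod P, a * b = b * a := by
    rintro ⟨a, a'⟩ ⟨ha, ha'⟩ ⟨b, b'⟩ ⟨hb, hb'⟩
    refine Prod.ext ?_ ?_
    · exact congrArg Subtype.val (comm_of_card hP ⟨a, ha⟩ ⟨b, hb⟩)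
    · exact congrArg Subtype.val (comm_of_card hP ⟨a', ha'⟩ ⟨b', hb'⟩)
  have hexp' : ∀ a ∈ P.prod P, a ^ 5 = 1 := by
    rintro ⟨a, a'⟩ ⟨ha, ha'⟩
    refine Prod.ext ?_ ?_
    · exact congrArg Subtype.val (hexp ⟨a, ha⟩)
    · exact congrArg Subtype.val (hexp ⟨a', ha'⟩)
  obtain ⟨n, b, χ, hχ⟩ := exists_basis ρ hcomm h5 hexp'
  have hn : finrank K V = n := by rw [finrank_eq_card_basis b, Fintype.card_fin]
  have hmul : ∀ i x y, χ i (x * y) = χ i x * χ i y := by
    intro i x y
    have h1 := hχ i (x * y)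
    rw [Subgroup.coe_mul, map_mul, Module.End.mul_apply, hχ i y, map_smul, hχ i x, smul_smul, mul_comm (χ i y)] at h1
    have h2 : (χ i (x * y) - χ i x * χ i y) • b i = 0 := by rw [sub_smul, ← h1, sub_self]
    exact sub_eq_zero.1 ((smul_eq_zero.1 h2).resolve_right (b.ne_zero i))
  have hone : ∀ i, χ i 1 = 1 := by
    intro i
    have h1 := hχ i 1
    rw [Subgroup.coe_one, map_one, Module.End.one_apply] at h1
    have h2 : (χ i 1 - 1) • b i = 0 := by rw [sub_smul, ← h1, one_smul, sub_self]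
    exact sub_eq_zero.1 ((smul_eq_zero.1 h2).resolve_right (b.ne_zero i))
  let c : Fin n → P →* K := fun i =>
    { toFun := fun a => χ i ⟨((a : T), 1), a.2, P.one_mem⟩
      map_one' := hone i
      map_mul' := fun x y => by
        rw [← hmul]
        congr 1
        exact Subtype.ext (Prod.ext rfl (one_mul 1).symm) }
  let d : Fin n → P →* K := fun i =>
    { toFun := fun a => χ i ⟨(1, (a : T)), P.one_mem, a.2⟩
      map_one' := hone i
      map_mul' := fun x y => by
        rw [← hmul]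
        congr 1
        exact Subtype.ext (Prod.ext (one_mul 1).symm rfl) }
  have hdim : ∀ (x y : P) (μ ν : K), finrank K ↥((ρ ((x : T), 1)).eigenspace μ ⊓ (ρ (1, (y : T))).eigenspace ν) =
      (Finset.univ.filter fun i => c i x = μ ∧ d i y = ν).card := fun x y μ ν =>
    finrank_inf b (fun i => hχ i ⟨((x : T), 1), x.2, P.one_mem⟩) (fun i => hχ i ⟨(1, (y : T)), P.one_mem, y.2⟩) μ ν
  have hle : ∀ a : P, a ≠ 1 → ∀ a' : P, a' ≠ 1 → ∀ b : P, b ≠ 1 → ∀ b' : P, b' ≠ 1 → ∀ μ ν : K,
      (Finset.univ.filter fun i => c i a = μ ∧ d i b = ν).card ≤ (Finset.univ.filter fun i => c i a' = μ ∧ d i b' = ν).card := by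
    intro a ha a' ha' b hb b' hb' μ ν
    obtain ⟨s, hs⟩ := hfus a a.2 (fun h => ha (Subtype.ext h)) a' a'.2 fun h => ha' (Subtype.ext h)
    obtain ⟨t, ht⟩ := hfus b b.2 (fun h => hb (Subtype.ext h)) b' b'.2 fun h => hb' (Subtype.ext h)
    rw [← hdim, ← hdim]
    refine (finrank_conj ρ (g := (s, t)) μ ν).trans (le_of_eq ?_)
    have e1 : (s, t) * ((a : T), (1 : T)) * (s, t)⁻¹ = ((a' : T), 1) := Prod.ext hs (by simp)
    have e2 : (s, t) * ((1 : T), (b : T)) * (s, t)⁻¹ = ((1 : T), (b' : T)) := Prod.ext (by simp) ht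
    rw [e1, e2]
  have htwo := count_two hexp hζ hP' c d (fun a ha a' ha' b hb b' hb' =>
    le_antisymm (hle a ha a' ha' b hb b' hb' ζ ζ) (hle a' ha' a ha b' hb' b hb ζ ζ)) (by omega)
  -- the single factors
  have hd1 : ∀ (x : P) (μ : K), finrank K ((ρ ((x : T), 1)).eigenspace μ) = (Finset.univ.filter fun i => c i x = μ).card := by
    intro x μ
    have h1 := hdim x 1 μ 1
    have h2 : (ρ ((1 : T), ((1 : P) : T))).eigenspace 1 = ⊤ := by
      rw [eq_top_iff]
      intro v _
      rw [Module.End.mem_eigenspace_iff, one_smul]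
      have e : ((1 : T), ((1 : P) : T)) = 1 := rfl
      rw [e, map_one, Module.End.one_apply]
    rw [h2, inf_top_eq] at h1
    rw [h1]
    congr 1
    apply Finset.filter_congr
    intro i _
    rw [map_one]
    exact ⟨fun h => h.1, fun h => ⟨h, rfl⟩⟩
  have hd2 : ∀ (x : P) (μ : K), finrank K ((ρ (1, (x : T))).eigenspace μ) = (Finset.univ.filter fun i => d i x = μ).card := by
    intro x μ
    have h1 := hdim 1 x 1 μ
    have h2 : (ρ (((1 : P) : T), (1 : T))).eigenspace 1 = ⊤ := by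
      rw [eq_top_iff]
      intro v _
      rw [Module.End.mem_eigenspace_iff, one_smul]
      have e : (((1 : P) : T), (1 : T)) = 1 := rfl
      rw [e, map_one, Module.End.one_apply]
    rw [h2, top_inf_eq] at h1
    rw [h1]
    congr 1
    apply Finset.filter_congr
    intro i _
    rw [map_one]
    exact ⟨fun h => h.2, fun h => ⟨rfl, h⟩⟩
  have hc1 : ∀ a : P, a ≠ 1 → ∀ a' : P, a' ≠ 1 → ∀ μ : K,
      (Finset.univ.filter fun i => c i a = μ).card ≤ (Finset.univ.filter fun i => c i a' = μ).card := by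
    intro a ha a' ha' μ
    obtain ⟨s, hs⟩ := hfus a a.2 (fun h => ha (Subtype.ext h)) a' a'.2 fun h => ha' (Subtype.ext h)
    have h1 := finrank_conj ρ (x := ((a : T), 1)) (y := ((a : T), 1)) (g := (s, 1)) μ μ
    have e1 : (s, (1 : T)) * ((a : T), (1 : T)) * (s, (1 : T))⁻¹ = ((a' : T), 1) := Prod.ext hs (by simp)
    rwa [e1, inf_idem, inf_idem, hd1, hd1] at h1
  have hc2 : ∀ a : P, a ≠ 1 → ∀ a' : P, a' ≠ 1 → ∀ μ : K,
      (Finset.univ.filter fun i => d i a = μ).card ≤ (Finset.univ.filter fun i => d i a' = μ).card := by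
    intro a ha a' ha' μ
    obtain ⟨s, hs⟩ := hfus a a.2 (fun h => ha (Subtype.ext h)) a' a'.2 fun h => ha' (Subtype.ext h)
    have h1 := finrank_conj ρ (x := ((1 : T), (a : T))) (y := ((1 : T), (a : T))) (g := (1, s)) μ μ
    have e1 : ((1 : T), s) * ((1 : T), (a : T)) * ((1 : T), s)⁻¹ = ((1 : T), (a' : T)) := Prod.ext (by simp) hs
    rwa [e1, inf_idem, inf_idem, hd2, hd2] at h1
  obtain ⟨e₁, h1, h1'⟩ := count_one hexp hζ hP' c (fun _ => True) fun a ha a' ha' => by
    simp only [and_true]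
    exact le_antisymm (hc1 a ha a' ha' ζ) (hc1 a' ha' a ha ζ)
  obtain ⟨e₂, h2, h2'⟩ := count_one hexp hζ hP' d (fun _ => True) fun a ha a' ha' => by
    simp only [and_true]
    exact le_antisymm (hc2 a ha a' ha' ζ) (hc2 a' ha' a ha ζ)
  simp only [and_true] at h1 h1' h2 h2'
  have hval : ∀ μ : K, μ ^ 5 = 1 → μ ≠ 1 → ∃ j < 4, ζ ^ (j + 1) = μ := by
    intro μ hμ hμ1
    obtain ⟨m, hm, h4⟩ := hζ.eq_pow_of_pow_eq_one hμ
    have hm0 : m ≠ 0 := by
      rintro rfl
      exact hμ1 (by rw [← h4, pow_zero])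
    exact ⟨m - 1, by omega, by rw [Nat.sub_add_cancel (by omega), h4]⟩
  refine ⟨e₁, e₂, by omega, by omega, ?_, ?_, ?_⟩
  · have h3 : Disjoint (Finset.univ.filter fun i => ∃ a, c i a ≠ 1) (Finset.univ.filter fun i => ∃ a, d i a ≠ 1) := by
      rw [Finset.disjoint_left]
      intro i hi hi'
      obtain ⟨a, ha⟩ := (Finset.mem_filter.1 hi).2
      obtain ⟨a', ha'⟩ := (Finset.mem_filter.1 hi').2
      rcases htwo i with h | h
      · exact ha (h a)
      · exact ha' (h a')
    have h4 := Finset.card_union_of_disjoint h3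
    have h6 := Finset.card_le_univ ((Finset.univ.filter fun i => ∃ a, c i a ≠ 1) ∪ (Finset.univ.filter fun i => ∃ a, d i a ≠ 1))
    rw [Fintype.card_fin] at h6
    omega
  · intro x hx hx1 μ hμ hμ1
    obtain ⟨j, hj, rfl⟩ := hval μ hμ hμ1
    rw [hd1 ⟨x, hx⟩]
    exact h1 _ (fun h => hx1 (congrArg Subtype.val h)) j hj
  · intro x hx hx1 μ hμ hμ1
    obtain ⟨j, hj, rfl⟩ := hval μ hμ hμ1
    rw [hd2 ⟨x, hx⟩]
    exact h2 _ (fun h => hx1 (congrArg Subtype.val h)) j hj

end Main

end Cfsg.Agent.H523.EPX.TK
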