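import Cfsg.Agent.H83.RootCount

/-!
# Counting roots with a nontrivial value on a torus element of order 5 (S5745, helper523)

For a root `s` with `χ(s) ≠ 1` and the `P` pairs of roots `(β, β + s)`: if every nontrivial value is taken by exactly `e` roots,
then `2 P + 4 ≤ 6 e`.
-/

set_option autoImplicit false

namespace Cfsg.Agent.H523.EPX.TK

open CoxeterSystem Cfsg Cfsg.Lie Cfsg.Lie.ChevalleyDatum
open Cfsg.Agent.ChevalleyStructure Cfsg.Agent.ChevalleyStructure.Elts Cfsg.Agent.ChevalleyStructure.CoxeterGeom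
  Cfsg.Agent.ChevalleyStructure.CoxeterGeomTypes Cfsg.Agent.ChevalleyStructure.RootVec
open Cfsg.Agent.Tits.Roots Cfsg.Agent.Tits.Core Cfsg.Agent.Nodes Cfsg.Agent.Nodes.Reps Cfsg.Agent.Nodes.BNOf
  Cfsg.Agent.Nodes.RGDChev
open Cfsg.Agent.KFacts.RgdChevCoord Cfsg.Agent.H129.TorusChar

/-! ### lists -/

section Lists

theorem countP_le {n : ℕ} {l : List ℕ} (hl : l.Nodup) (hn : ∀ x ∈ l, x < n) (p : ℕ → Prop) [DecidablePred p] :
    l.countP (fun x => decide (p x)) ≤ ((Finset.range n).filter p).card := by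
  classical
  rw [List.countP_eq_length_filter, ← List.toFinset_card_of_nodup (hl.filter _)]
  apply Finset.card_le_card
  intro x hx
  rw [List.mem_toFinset, List.mem_filter] at hx
  rw [Finset.mem_filter, Finset.mem_range]
  exact ⟨hn x hx.1, by simpa using hx.2⟩

variable {K : Type*} [Field K] [DecidableEq K] (χ : ℕ → K)

/-- the pointwise inequality, summed -/
theorem sum_pairs {v : K} (hv : v ≠ 1) : ∀ L : List (ℕ × ℕ), (∀ p ∈ L, χ p.2 = χ p.1 * v) →
    2 * L.length ≤ (L.flatMap fun p => [p.1, p.2]).countP (fun x => decide (χ x ≠ 1)) +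
      (L.map Prod.snd).countP (fun x => decide (χ x = v)) + (L.map Prod.fst).countP (fun x => decide (χ x = v⁻¹))
  | [], _ => by simp
  | (b, c) :: L, h => by
    have ih := sum_pairs hv L fun p hp => h p (List.mem_cons_of_mem _ hp)
    have h1 : χ c = χ b * v := h (b, c) List.mem_cons_self
    have h2 : 2 ≤ ([b, c] : List ℕ).countP (fun x => decide (χ x ≠ 1)) + ([c] : List ℕ).countP (fun x => decide (χ x = v)) +
        ([b] : List ℕ).countP (fun x => decide (χ x = v⁻¹)) := by
      by_cases hb : χ b = 1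
      · have hc : χ c = v := by rw [h1, hb, one_mul]
        simp [hb, hc, hv]
      · by_cases hc : χ c = 1
        · have hb' : χ b = v⁻¹ := eq_inv_of_mul_eq_one_left (by rw [← h1, hc])
          have hb2 : v⁻¹ ≠ 1 := by rw [← hb']; exact hb
          simp [List.countP_cons, hc, hb', hb2]
        · simp only [List.countP_cons, List.countP_nil, ne_eq, hb, hc, not_false_eq_true, decide_true, if_true]
          omega
    have e1 : (((b, c) :: L).flatMap fun p => [p.1, p.2]) = [b, c] ++ L.flatMap fun p => [p.1, p.2] := rfl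
    have e2 : (((b, c) :: L).map Prod.snd) = [c] ++ L.map Prod.snd := rfl
    have e3 : (((b, c) :: L).map Prod.fst) = [b] ++ L.map Prod.fst := rfl
    rw [e1, e2, e3, List.countP_append, List.countP_append, List.countP_append, List.length_cons]
    omega

/-- **The count.** -/
theorem count_pairs {n s t : ℕ} {L : List (ℕ × ℕ)} (h1 : (s :: t :: L.flatMap fun p => [p.1, p.2]).Nodup)
    (h2 : (s :: L.map Prod.snd).Nodup) (h3 : (t :: L.map Prod.fst).Nodup)
    (h4 : ∀ x ∈ s :: t :: L.flatMap fun p => [p.1, p.2], x < n) (hs : χ s ≠ 1) (ht : χ t = (χ s)⁻¹)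
    (hL : ∀ p ∈ L, χ p.2 = χ p.1 * χ s) {e : ℕ} (he : ((Finset.range n).filter fun x => χ x ≠ 1).card = 4 * e)
    (he1 : ((Finset.range n).filter fun x => χ x = χ s).card = e)
    (he2 : ((Finset.range n).filter fun x => χ x = (χ s)⁻¹).card = e) : 2 * L.length + 4 ≤ 6 * e := by
  have hsn : s < n := h4 s List.mem_cons_self
  have htn : t < n := h4 t (List.mem_cons_of_mem _ List.mem_cons_self)
  have hfl : ∀ x ∈ L.flatMap fun p => [p.1, p.2], x < n := fun x hx =>
    h4 x (List.mem_cons_of_mem _ (List.mem_cons_of_mem _ hx))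
  have a1 := countP_le h1 h4 (fun x => χ x ≠ 1)
  have a2 := countP_le (n := n) h2 (by
    intro x hx
    rcases List.mem_cons.1 hx with rfl | hx
    · exact hsn
    · obtain ⟨p, hp, rfl⟩ := List.mem_map.1 hx
      exact hfl _ (List.mem_flatMap.2 ⟨p, hp, by simp⟩)) (fun x => χ x = χ s)
  have a3 := countP_le (n := n) h3 (by
    intro x hx
    rcases List.mem_cons.1 hx with rfl | hx
    · exact htn
    · obtain ⟨p, hp, rfl⟩ := List.mem_map.1 hx
      exact hfl _ (List.mem_flatMap.2 ⟨p, hp, by simp⟩)) (fun x => χ x = (χ s)⁻¹)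
  have ht1 : χ t ≠ 1 := by
    rw [ht]
    intro h
    exact hs (inv_eq_one.1 h)
  have a4 := sum_pairs χ hs L hL
  rw [he, List.countP_cons, List.countP_cons, if_pos (by simpa using ht1), if_pos (by simpa using hs)] at a1
  rw [he1, List.countP_cons, if_pos (by simp)] at a2
  rw [he2, List.countP_cons, if_pos (by simpa using ht)] at a3
  omega

end Lists

/-! ### tables -/

/-- `F₄`: four long roots: `(s, -s, pairs (β, β + s))` -/
def tabF : List (ℕ × ℕ × List (ℕ × ℕ)) :=
  [(25, 22, [(1, 2), (4, 5), (8, 9), (12, 13), (15, 16), (19, 20), (21, 23), (24, 26), (27, 28), (31, 32), (34, 35),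
  (38, 39), (42, 43), (45, 46)]), (24, 23, [(0, 1), (5, 6), (9, 10), (11, 12), (16, 17), (18, 19), (21, 22), (25,
  26), (28, 29), (30, 31), (35, 36), (37, 38), (41, 42), (46, 47)]), (30, 17, [(1, 4), (2, 5), (7, 11), (10, 14),
  (15, 21), (16, 23), (19, 27), (20, 28), (24, 31), (26, 32), (33, 37), (36, 40), (42, 45), (43, 46)]), (41, 6, [(1,
  15), (2, 16), (3, 18), (4, 21), (5, 23), (10, 33), (12, 34), (13, 35), (14, 37), (24, 42), (26, 43), (29, 44),
  (31, 45), (32, 46)])]

/-- `E₆`: the simple roots: `(s, -s, pairs (β, β + s))` -/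
def tabE : List (ℕ × ℕ × List (ℕ × ℕ)) :=
  [(56, 15, [(5, 16), (6, 17), (7, 18), (8, 19), (9, 20), (10, 21), (11, 26), (12, 27), (13, 28), (14, 29), (42,
  57), (43, 58), (44, 59), (45, 60), (50, 61), (51, 62), (52, 63), (53, 64), (54, 65), (55, 66)]), (46, 25, [(0, 1),
  (8, 11), (9, 12), (10, 13), (19, 26), (20, 27), (21, 28), (22, 30), (23, 31), (24, 32), (39, 47), (40, 48), (41,
  49), (43, 50), (44, 51), (45, 52), (58, 61), (59, 62), (60, 63), (70, 71)]), (42, 29, [(2, 5), (3, 6), (4, 7),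
  (14, 15), (19, 22), (20, 23), (21, 24), (26, 30), (27, 31), (28, 32), (39, 43), (40, 44), (41, 45), (47, 50), (48,
  51), (49, 52), (56, 57), (64, 67), (65, 68), (66, 69)]), (39, 32, [(1, 2), (6, 8), (7, 9), (13, 14), (17, 19),
  (18, 20), (24, 25), (28, 29), (30, 33), (31, 34), (37, 40), (38, 41), (42, 43), (46, 47), (51, 53), (52, 54), (57,
  58), (62, 64), (63, 65), (69, 70)]), (37, 34, [(2, 3), (5, 6), (9, 10), (12, 13), (16, 17), (20, 21), (23, 24),
  (27, 28), (31, 32), (33, 35), (36, 38), (39, 40), (43, 44), (47, 48), (50, 51), (54, 55), (58, 59), (61, 62), (65,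
  66), (68, 69)]), (36, 35, [(3, 4), (6, 7), (8, 9), (11, 12), (17, 18), (19, 20), (22, 23), (26, 27), (30, 31),
  (33, 34), (37, 38), (40, 41), (44, 45), (48, 49), (51, 52), (53, 54), (59, 60), (62, 63), (64, 65), (67, 68)])]

/-- `E₇`: the simple roots: `(s, -s, pairs (β, β + s))` -/
def tabS : List (ℕ × ℕ × List (ℕ × ℕ)) :=
  [(93, 32, [(0, 1), (17, 33), (18, 34), (19, 35), (20, 36), (21, 37), (22, 38), (23, 39), (24, 40), (25, 41), (26,
  42), (27, 48), (28, 49), (29, 50), (30, 51), (31, 52), (73, 94), (74, 95), (75, 96), (76, 97), (77, 98), (83, 99),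
  (84, 100), (85, 101), (86, 102), (87, 103), (88, 104), (89, 105), (90, 106), (91, 107), (92, 108), (124, 125)]),
  (78, 47, [(3, 7), (4, 8), (5, 9), (6, 10), (23, 27), (24, 28), (25, 29), (26, 30), (39, 48), (40, 49), (41, 50),
  (42, 51), (43, 53), (44, 54), (45, 55), (46, 56), (69, 79), (70, 80), (71, 81), (72, 82), (74, 83), (75, 84), (76,
  85), (77, 86), (95, 99), (96, 100), (97, 101), (98, 102), (115, 119), (116, 120), (117, 121), (118, 122)]), (73,
  52, [(1, 2), (11, 17), (12, 18), (13, 19), (14, 20), (15, 21), (16, 22), (31, 32), (39, 43), (40, 44), (41, 45),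
  (42, 46), (48, 53), (49, 54), (50, 55), (51, 56), (69, 74), (70, 75), (71, 76), (72, 77), (79, 83), (80, 84), (81,
  85), (82, 86), (93, 94), (103, 109), (104, 110), (105, 111), (106, 112), (107, 113), (108, 114), (123, 124)]),
  (69, 56, [(2, 3), (8, 11), (9, 12), (10, 13), (20, 23), (21, 24), (22, 25), (30, 31), (36, 39), (37, 40), (38,
  41), (46, 47), (51, 52), (53, 57), (54, 58), (55, 59), (66, 70), (67, 71), (68, 72), (73, 74), (78, 79), (84, 87),
  (85, 88), (86, 89), (94, 95), (100, 103), (101, 104), (102, 105), (112, 115), (113, 116), (114, 117), (122,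
  123)]), (66, 59, [(3, 4), (7, 8), (12, 14), (13, 15), (18, 20), (19, 21), (25, 26), (29, 30), (34, 36), (35, 37),
  (41, 42), (45, 46), (50, 51), (55, 56), (57, 60), (58, 61), (64, 67), (65, 68), (69, 70), (74, 75), (79, 80), (83,
  84), (88, 90), (89, 91), (95, 96), (99, 100), (104, 106), (105, 107), (110, 112), (111, 113), (117, 118), (121,
  122)]), (64, 61, [(4, 5), (8, 9), (11, 12), (15, 16), (17, 18), (21, 22), (24, 25), (28, 29), (33, 34), (37, 38),
  (40, 41), (44, 45), (49, 50), (54, 55), (58, 59), (60, 62), (63, 65), (66, 67), (70, 71), (75, 76), (80, 81), (84,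
  85), (87, 88), (91, 92), (96, 97), (100, 101), (103, 104), (107, 108), (109, 110), (113, 114), (116, 117), (120,
  121)]), (63, 62, [(5, 6), (9, 10), (12, 13), (14, 15), (18, 19), (20, 21), (23, 24), (27, 28), (34, 35), (36, 37),
  (39, 40), (43, 44), (48, 49), (53, 54), (57, 58), (60, 61), (64, 65), (67, 68), (71, 72), (76, 77), (81, 82), (85,
  86), (88, 89), (90, 91), (97, 98), (101, 102), (104, 105), (106, 107), (110, 111), (112, 113), (115, 116), (119,
  120)])]

/-- the properties of an entry of the tables -/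
def chk (D : ChevalleyDatum) (P : ℕ) (a : ℕ × ℕ × List (ℕ × ℕ)) : Bool :=
  decide (a.1 :: a.2.1 :: a.2.2.flatMap fun p => [p.1, p.2]).Nodup && decide (a.1 :: a.2.2.map Prod.snd).Nodup &&
    decide (a.2.1 :: a.2.2.map Prod.fst).Nodup &&
    (a.1 :: a.2.1 :: a.2.2.flatMap fun p => [p.1, p.2]).all (fun x => decide (x < D.nroots)) &&
    (List.range D.rank).all (fun i => decide (rt D a.2.1 i = - rt D a.1 i)) &&
    a.2.2.all (fun p => (List.range D.rank).all fun i => decide (rt D p.2 i = rt D p.1 i + rt D a.1 i)) &&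
    decide (a.2.2.length = P)

theorem chkF : tabF.all (chk chevF4 14) = true := by decide +kernel

theorem chkE : tabE.all (chk chevE6 20) = true := by decide +kernel

theorem chkS : tabS.all (chk chevE7 32) = true := by decide +kernel

end Cfsg.Agent.H523.EPX.TK
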