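import Cfsg.Agent.H523.EPX.FiveRep
import Cfsg.Agent.H523.EPX.RootPairs
import Cfsg.Agent.H943.TorDim

/-!
# `T × T` with the property of order 25 is not a subgroup of `F₄`, `E₆`, `E₇` (S5745, helper523)

`k` algebraically closed, algebraic over its prime field, of characteristic `r ≠ 5`.
-/

set_option autoImplicit false
set_option linter.unusedSectionVars false

namespace Cfsg.Agent.H523.EPX.TK

open CoxeterSystem Cfsg Cfsg.Lie Cfsg.Lie.ChevalleyDatum Module
open Cfsg.Agent.ChevalleyStructure Cfsg.Agent.ChevalleyStructure.Elts Cfsg.Agent.ChevalleyStructure.CoxeterGeom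
  Cfsg.Agent.ChevalleyStructure.CoxeterGeomTypes Cfsg.Agent.ChevalleyStructure.RootVec
open Cfsg.Agent.Tits.Roots Cfsg.Agent.Tits.Core Cfsg.Agent.Nodes Cfsg.Agent.Nodes.Reps Cfsg.Agent.Nodes.BNOf
  Cfsg.Agent.Nodes.RGDChev
open Cfsg.Agent.KFacts.RgdChevCoord Cfsg.Agent.H129.TorusChar

universe u

theorem card_split' {K : Type*} [Field K] [DecidableEq K] {ζ : K} (hζ : IsPrimitiveRoot ζ 5) {α : Type*} [DecidableEq α]
    (s : Finset α) (c : α → K) (hc : ∀ i ∈ s, c i ^ 5 = 1) :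
    (s.filter fun i => c i ≠ 1).card = ∑ j ∈ Finset.range 4, (s.filter fun i => c i = ζ ^ (j + 1)).card := by
  classical
  rw [← Finset.card_biUnion]
  · congr 1
    ext i
    simp only [Finset.mem_filter, Finset.mem_biUnion, Finset.mem_range]
    constructor
    · rintro ⟨h2, h1⟩
      obtain ⟨m, hm, h4⟩ := hζ.eq_pow_of_pow_eq_one (hc i h2)
      have hm0 : m ≠ 0 := by
        rintro rfl
        exact h1 (by rw [← h4, pow_zero])
      exact ⟨m - 1, by omega, h2, by rw [Nat.sub_add_cancel (by omega), h4]⟩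
    · rintro ⟨j, hj, h2, h1⟩
      refine ⟨h2, ?_⟩
      rw [h1]
      exact hζ.pow_ne_one_of_pos_of_lt (by omega) (by omega)
  · intro j hj l hl hjl
    rw [Function.onFun, Finset.disjoint_left]
    intro i h1 h2
    rw [Finset.mem_filter] at h1 h2
    have h3 := h1.2.symm.trans h2.2
    have hj' := Finset.mem_range.1 (Finset.mem_coe.1 hj)
    have hl' := Finset.mem_range.1 (Finset.mem_coe.1 hl)
    have h4 := hζ.pow_inj (by omega) (by omega) h3
    omega

section Tor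

variable {D : ChevalleyDatum} {l : ℕ} {M : CoxeterMatrix (Fin l)} (hp : IsType D l M) {k : Type u} [Field k] [DecidableEq k]

theorem card_fin_range (n : ℕ) (p : ℕ → Prop) [DecidablePred p] :
    ((Finset.range n).filter p).card = (Finset.univ.filter fun r : Fin n => p r).card := by
  rw [Finset.card_filter, Finset.card_filter, Finset.sum_range]

theorem vec_eq_of {a b c : ℕ} (h : ∀ i < D.rank, rt D c i = rt D b i + rt D a i) (hl : D.rank = l) :
    vec D l c = vec D l b + vec D l a := by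
  funext i
  rw [Pi.add_apply, vec_apply, vec_apply, vec_apply]
  exact h i (by rw [hl]; exact i.2)

/-- the inequality for a torus element of order 5 -/
theorem six_e {t : ↥(D.group k)} (ht : t ∈ TT D k) (ht5 : t ^ 5 = 1) {P : ℕ} {a : ℕ × ℕ × List (ℕ × ℕ)}
    (ha : chk D P a = true) (hta : cX hp t (vec D l a.1) ≠ 1) {e : ℕ}
    (he : ∀ μ : k, μ ^ 5 = 1 → μ ≠ 1 → (Finset.univ.filter fun r : Fin D.nroots => cX hp t (vec D l r) = μ).card = e) :
    2 * P + 4 ≤ 6 * e := by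
  obtain ⟨s, ns, L⟩ := a
  simp only [chk, Bool.and_eq_true, decide_eq_true_eq, List.all_eq_true, List.mem_range] at ha
  obtain ⟨⟨⟨⟨⟨⟨h1, h2⟩, h3⟩, h4⟩, h5⟩, h6⟩, h7⟩ := ha
  have hM := isMC_cX hp ht
  have hl : D.rank = l := hp.rank_eq
  set χ : ℕ → k := fun r => cX hp t (vec D l r) with hχ
  have hpow : ∀ r, χ r ^ 5 = 1 := by
    intro r
    show cX hp t (vec D l r) ^ 5 = 1
    rw [← cX_pow hp ht, ht5, cX_one]
  have hs : χ s ≠ 1 := hta
  have hns : χ ns = (χ s)⁻¹ := by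
    apply eq_inv_of_mul_eq_one_left
    show cX hp t (vec D l ns) * cX hp t (vec D l s) = 1
    rw [← hM.add]
    have e0 : vec D l ns + vec D l s = 0 := by
      funext i
      rw [Pi.add_apply, vec_apply, vec_apply, h5 i (by rw [hl]; exact i.2)]
      exact neg_add_cancel _
    rw [e0]
    exact hM.zero
  have hL : ∀ p ∈ L, χ p.2 = χ p.1 * χ s := by
    intro p hp'
    show cX hp t (vec D l p.2) = cX hp t (vec D l p.1) * cX hp t (vec D l s)
    rw [vec_eq_of (fun i hi => h6 p hp' i hi) hl, hM.add]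
  have hord : orderOf (χ s) = 5 := by
    have hf : Fact (Nat.Prime 5) := ⟨by norm_num⟩
    exact orderOf_eq_prime (hpow s) hs
  have hζ : IsPrimitiveRoot (χ s) 5 := by
    rw [← hord]
    exact IsPrimitiveRoot.orderOf _
  have hcard : ∀ μ : k, μ ^ 5 = 1 → μ ≠ 1 → ((Finset.range D.nroots).filter fun r => χ r = μ).card = e := by
    intro μ hμ hμ1
    rw [card_fin_range]
    exact he μ hμ hμ1
  have h8 := card_split' hζ (Finset.range D.nroots) χ fun i _ => hpow i
  rw [Finset.sum_congr rfl fun j hj => hcard (χ s ^ (j + 1)) (by rw [← pow_mul, mul_comm, pow_mul, hζ.pow_eq_one, one_pow])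
    (hζ.pow_ne_one_of_pos_of_lt (by omega) (by have := Finset.mem_range.1 hj; omega))] at h8
  rw [Finset.sum_const, Finset.card_range, smul_eq_mul] at h8
  have h9 := count_pairs χ h1 h2 h3 h4 hs hns hL h8 (hcard _ (hpow s) hs)
    (hcard _ (by rw [inv_pow, hpow, inv_one]) (by rw [← hns]; intro h; rw [hns, inv_eq_one] at h; exact hs h))
  rw [← h7]
  exact h9

end Tor

section Rep

variable {D : ChevalleyDatum} {l : ℕ} {M : CoxeterMatrix (Fin l)} (hp : IsType D l M) {k : Type u} [Field k]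

/-- the adjoint representation -/
noncomputable def adj (D : ChevalleyDatum) (k : Type u) [Field k] : ↥(D.group k) →* Module.End k (D.Idx → k) :=
  ((Matrix.toLinAlgEquiv' : Matrix D.Idx D.Idx k ≃ₐ[k] Module.End k (D.Idx → k)).toRingEquiv.toRingHom.toMonoidHom).comp
    ((Units.coeHom (Matrix D.Idx D.Idx k)).comp (D.group k).subtype)

theorem adj_apply (x : ↥(D.group k)) :
    adj D k x = Matrix.toLin' ((x : GL D.Idx k) : Matrix D.Idx D.Idx k) := rfl

include hp in
/-- the dimension of an eigenspace for a nontrivial eigenvalue -/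
theorem finrank_adj [DecidableEq k] {x z t : ↥(D.group k)} (ht : t ∈ TT D k) (hz : z⁻¹ * x * z = t) {μ : k}
    (hμ : μ ≠ 1) : finrank k ((adj D k x).eigenspace μ) =
      (Finset.univ.filter fun r : Fin D.nroots => cX hp t (vec D l r) = μ).card := by
  have h1 : (((z⁻¹ : ↥(D.group k)) : GL D.Idx k) : Matrix D.Idx D.Idx k) * ((x : GL D.Idx k) : Matrix D.Idx D.Idx k) *
      (((((z⁻¹ : ↥(D.group k)) : GL D.Idx k))⁻¹ : GL D.Idx k) : Matrix D.Idx D.Idx k) =
      Matrix.diagonal (Sum.elim (fun _ => (1 : k)) (fun s : Fin D.nroots => cX hp t (vec D l s))) := by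
    rw [← Cfsg.Agent.H83.RootCount.coe_eq_diagonal hp ht, ← hz, ← Subgroup.coe_inv, inv_inv, Subgroup.coe_mul,
      Subgroup.coe_mul, Units.val_mul, Units.val_mul]
  have h2 := Cfsg.Agent.H943.TorDim.finrank_ker_conj_diag _ _ h1 μ
  rw [Module.End.eigenspace_def, adj_apply, h2]
  symm
  refine Finset.card_bij (fun r _ => Sum.inr r) ?_ ?_ ?_
  · intro a ha
    rw [Finset.mem_filter] at ha ⊢
    exact ⟨Finset.mem_univ _, ha.2⟩
  · intro a _ b _ h
    exact Sum.inr_injective h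
  · intro b hb
    rw [Finset.mem_filter] at hb
    rcases b with b | b
    · exact absurd hb.2.symm hμ
    · exact ⟨b, Finset.mem_filter.2 ⟨Finset.mem_univ _, hb.2⟩, rfl⟩

end Rep

section Main

open Cfsg.Agent.BpExc

variable {D : ChevalleyDatum} {l : ℕ} {M : CoxeterMatrix (Fin l)} (hp : IsType D l M) {k : Type u} [Field k]
  [IsAlgClosed k] (r : ℕ) [Fact r.Prime] [CharP k r] (hk : TorAll.HAlg r k)

include hk in
/-- the bound for `e` -/
theorem six_e_adj {x : ↥(D.group k)} (hx : x ^ 5 = 1) (hx1 : x ≠ 1) (hr : r ≠ 5) {P : ℕ}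
    {tab : List (ℕ × ℕ × List (ℕ × ℕ))} (htab : tab.all (chk D P) = true)
    (hgen : ∀ t ∈ TT D k, t ^ 5 = 1 → (∀ a ∈ tab, cX hp t (vec D l a.1) = 1) → t = 1) {e : ℕ}
    (he : ∀ μ : k, μ ^ 5 = 1 → μ ≠ 1 → finrank k ((adj D k x).eigenspace μ) = e) : 2 * P + 4 ≤ 6 * e := by
  classical
  obtain ⟨z, hz⟩ := TorAll.exists_toral hp r hk (q := 5) (by norm_num) (Ne.symm hr) hx
  obtain ⟨t, ht⟩ : ∃ t, t = z⁻¹ * x * z := ⟨_, rfl⟩
  rw [← ht] at hz
  have e1 : t = z⁻¹ * x * z⁻¹⁻¹ := by rw [inv_inv, ht]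
  have ht5 : t ^ 5 = 1 := by rw [e1, conj_pow, hx, mul_one, inv_inv, inv_mul_cancel]
  have ht1 : t ≠ 1 := by
    intro h
    apply hx1
    have e2 : x = z * t * z⁻¹ := by rw [ht]; group
    rw [e2, h]; group
  obtain ⟨a, ha, ha1⟩ : ∃ a ∈ tab, cX hp t (vec D l a.1) ≠ 1 := by
    by_contra hcon
    push Not at hcon
    exact ht1 (hgen t hz ht5 hcon)
  exact six_e hp hz ht5 (List.all_eq_true.1 htab a ha) ha1 fun μ hμ hμ1 => by
    rw [← he μ hμ hμ1, finrank_adj hp hz ht.symm hμ1]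

include hk in
/-- **No `T × T`.** -/
theorem no_five_sq (hr : r ≠ 5) {P : ℕ} {tab : List (ℕ × ℕ × List (ℕ × ℕ))} (htab : tab.all (chk D P) = true)
    (hgen : ∀ t ∈ TT D k, t ^ 5 = 1 → (∀ a ∈ tab, cX hp t (vec D l a.1) = 1) → t = 1)
    (hnum : ∀ e₁ e₂ : ℕ, 5 ∣ e₁ → 5 ∣ e₂ → 2 * P + 4 ≤ 6 * e₁ → 2 * P + 4 ≤ 6 * e₂ →
      24 * (e₁ + e₂) ≤ 5 * (D.rank + D.nroots) → False) (hN : D.rank + D.nroots < 576)
    {T : Type*} [Group T] {P₀ : Subgroup T} (hP : Nat.card P₀ = 25)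
    (hfus : ∀ x ∈ P₀, x ≠ 1 → ∀ y ∈ P₀, y ≠ 1 → ∃ s : T, s * x * s⁻¹ = y) (f : T × T →* ↥(D.group k))
    (hf : Function.Injective f) : False := by
  classical
  have h5 : ((5 : ℕ) : k) ≠ 0 := by
    intro h0
    have h1 := (CharP.cast_eq_zero_iff k r 5).1 h0
    exact hr ((Nat.prime_dvd_prime_iff_eq (Fact.out : r.Prime) (by norm_num)).1 h1)
  have hdim : finrank k (D.Idx → k) = D.rank + D.nroots := by
    rw [Module.finrank_fintype_fun_eq_card, Fintype.card_sum, Fintype.card_fin, Fintype.card_fin]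
  obtain ⟨e₁, e₂, h1, h2, h3, h4, h6⟩ := five_pair h5 hP hfus ((adj D k).comp f) (by rw [hdim]; exact hN)
  have hexp := exp_of_fus hP hfus
  have hnt : Nontrivial P₀ := by
    have hfin : Finite P₀ := Nat.finite_of_card_ne_zero (by rw [hP]; norm_num)
    rw [← Finite.one_lt_card_iff_nontrivial, hP]; norm_num
  obtain ⟨x, hx⟩ := exists_ne (1 : P₀)
  have hx1 : (x : T) ≠ 1 := fun h => hx (Subtype.ext h)
  have hx5 : (x : T) ^ 5 = 1 := congrArg Subtype.val (hexp x)
  rw [hdim] at h3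
  refine hnum e₁ e₂ h1 h2 ?_ ?_ h3
  · refine six_e_adj hp r hk (x := f ((x : T), 1)) ?_ ?_ hr htab hgen fun μ hμ hμ1 => h4 x x.2 hx1 μ hμ hμ1
    · rw [← map_pow, Prod.pow_mk, hx5, one_pow]
      exact map_one f
    · intro h
      exact hx1 (congrArg Prod.fst (hf (h.trans (map_one f).symm)))
  · refine six_e_adj hp r hk (x := f (1, (x : T))) ?_ ?_ hr htab hgen fun μ hμ hμ1 => h6 x x.2 hx1 μ hμ hμ1
    · rw [← map_pow, Prod.pow_mk, hx5, one_pow]
      exact map_one f
    · intro h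
      exact hx1 (congrArg Prod.snd (hf (h.trans (map_one f).symm)))

end Main

end Cfsg.Agent.H523.EPX.TK
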