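import Cfsg.Agent.H938.EPK.Z
import Cfsg.Agent.H209.EPX.Defs
import Cfsg.Agent.NotCT.Orders

/-!
# S5745, CrossK: `U₃(3) ^ k` in `F₄(2)` and `J₂ ^ k` in `F₄(4)`, `k ≥ 2` (helper523)

By `(Z)` with `r = 7` (`H938.EPK.zkill`): `7 |T| ≤ |C_G(x)|` for some `x` of order 7, but `|C_G(x)| ≤ 13608` in `F₄(2)` and
`|C_G(x)| ≤ 4200000` in `F₄(4)` (hypothesis `hc`, helper938's `cent7`). The group `G` is arbitrary here.
-/

set_option autoImplicit false

namespace Cfsg.Agent.H523.EPX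

open Cfsg Cfsg.Agent.H209.EPX

section

variable {G : Type*} [Group G] [Finite G] {H N : Subgroup G} {T : Type} [Group T] {k : ℕ} {e : N ≃* (Fin k → T)}

/-- **(Z)**, the form for `EPS` -/
theorem zkill_eps (_h : EPS H N e) (hk : 2 ≤ k) {r : ℕ} (hr : r.Prime) (hT : r ∣ Nat.card T) {c : ℕ}
    (hc : ∀ x : G, orderOf x = r → Nat.card (Subgroup.centralizer ({x} : Set G)) ≤ c) (hlt : c < r * Nat.card T) :
    False :=
  Cfsg.Agent.H938.EPK.zkill e hk hr hT hc hlt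

/-- `U₃(3) ^ k`, `k ≥ 2`, in `F₄(2)`: only `|T| = 6048` is used -/
theorem k_u33 (h : EPS H N e) (hk : 2 ≤ k) (hT : Nat.card T = 6048)
    (hc : ∀ x : G, orderOf x = 7 → Nat.card (Subgroup.centralizer ({x} : Set G)) ≤ 13608) : False :=
  zkill_eps h hk (r := 7) (by norm_num) (by rw [hT]; norm_num) hc (by rw [hT]; norm_num)

/-- `J₂ ^ k`, `k ≥ 2`, in `F₄(4)`: only `|T| = 604800` is used -/
theorem k_j2 (h : EPS H N e) (hk : 2 ≤ k) (hT : Nat.card T = 604800)
    (hc : ∀ x : G, orderOf x = 7 → Nat.card (Subgroup.centralizer ({x} : Set G)) ≤ 4200000) : False :=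
  zkill_eps h hk (r := 7) (by norm_num) (by rw [hT]; norm_num) hc (by rw [hT]; norm_num)

/-- `k_j2` with the name -/
theorem k_j2' (h : EPS H N e) (hk : 2 ≤ k) (hT : Spor.IsoJ2 T)
    (hc : ∀ x : G, orderOf x = 7 → Nat.card (Subgroup.centralizer ({x} : Set G)) ≤ 4200000) : False :=
  k_j2 h hk (Cfsg.Agent.NotCT.Orders.j2 hT) hc

/-- the Tits group, `k ≥ 2`, in `F₄(4)`: `13 |T| = 233625600`; only the order is used -/
theorem k_tits (h : EPS H N e) (hk : 2 ≤ k) (hT : Nat.card T = 17971200)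
    (hc : ∀ x : G, orderOf x = 13 → Nat.card (Subgroup.centralizer ({x} : Set G)) ≤ 200000000) : False :=
  zkill_eps h hk (r := 13) (by norm_num) (by rw [hT]; norm_num) hc (by rw [hT]; norm_num)

end

end Cfsg.Agent.H523.EPX
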